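import Cfsg.Agent.H589.BD.Kill
import Cfsg.Agent.H362.Eight.SpRow
import Cfsg.Agent.H133.PB.LieCross
import Cfsg.Agent.H163.PG.Ord
import Cfsg.Agent.H934.OutB

/-!
# S4932 and S4953: `PSp_{2m}(q)` at its own characteristic (helper362)

`row_own_psp` : three nontrivial characters of the principal block, the two of the rank 3 action (degrees `f`, `g`)
and one of degree `dg 3` (`m ≥ 3`), `dg 2` (`m = 2`, `q ≥ 4`), with unrelated degrees.
-/

set_option autoImplicit false
set_option linter.unusedSectionVars false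

open Cfsg

namespace Cfsg.Agent.H362.BD

open Cfsg.Agent.H477.HC Module Cfsg.Agent.H53.HC Cfsg.Agent.Characters Cfsg.Agent.H362.Dl Cfsg.Agent.H362.Eight
  Cfsg.Agent.H589.BD

universe u v

/-- characters of degree divisible by a prime different from the characteristic -/
theorem inB0_of_dvd {S : Type u} [Group S] [Finite S] {p l : ℕ} (hp : p.Prime) (hl : l.Prime) (hlp : l ≠ p)
    (hS : IsLieTypeChar p S) (χ : IrrCharacter S) (h : l ∣ charDegree (χ : S → ℂ)) : InB0 p χ :=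
  fun _ hM => H133.PB.mem_principal_of_lie hp hl hlp hS χ h hM

theorem nt_of_degree {S : Type u} [Group S] [Finite S] (χ : IrrCharacter S) (h : 1 < charDegree (χ : S → ℂ)) : NT χ := by
  refine ⟨1, fun h1 => ?_⟩
  rw [Cfsg.Agent.Blocks.Basic.irr_one_eq_charDegree χ.2] at h1
  have h2 : charDegree (χ : S → ℂ) = 1 := by exact_mod_cast h1
  omega

/-- `3 ≤ 2 d`-type bound for proper divisors -/
theorem two_mul_le {o d d' : ℕ} (ho : 0 < o) (hd : d ∣ o) (hd' : d' ∣ o) (h : d < d') : 2 * d ≤ o := by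
  obtain ⟨t, ht⟩ := hd
  have h1 : d' ≤ o := Nat.le_of_dvd ho hd'
  have h2 : 2 ≤ t := by
    by_contra hcon
    push Not at hcon
    have : t = 0 ∨ t = 1 := by omega
    rcases this with rfl | rfl <;> omega
  calc 2 * d ≤ t * d := Nat.mul_le_mul_right _ h2
    _ = o := by rw [ht, mul_comm]

theorem not_rel_of_lt {o a b : ℕ} (ho : 0 < o) (h : o * a < b) : ¬ Rel o a b ∧ ¬ Rel o b a := by
  have key : ∀ d d' : ℕ, d ∣ o → d' ∣ o → b * d ≠ a * d' := by
    intro d d' hd hd' heq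
    have h1 : 0 < d := Nat.pos_of_dvd_of_pos hd ho
    have h2 : d' ≤ o := Nat.le_of_dvd ho hd'
    have h3 : a * d' ≤ a * o := Nat.mul_le_mul_left _ h2
    have h4 : b * 1 ≤ b * d := Nat.mul_le_mul_left _ h1
    have h5 : a * o = o * a := mul_comm _ _
    omega
  refine ⟨?_, ?_⟩
  · rintro ⟨d, d', hd, hd', h1⟩
    exact key d' d hd' hd h1.symm
  · rintro ⟨d, d', hd, hd', h1⟩
    exact key d d' hd hd' h1

/-- a prime divisor different from `p` -/
theorem exists_prime {p n q X f : ℕ} (_hp : p.Prime) (hX : Nat.Coprime X p) (h : n * f = q * X) (hf : 0 < f) (hn : 0 < n)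
    (hlt : n < X) : ∃ l : ℕ, l.Prime ∧ l ≠ p ∧ l ∣ f := by
  by_contra hcon
  push Not at hcon
  obtain ⟨j, h1⟩ : ∃ j, f = p ^ j := ⟨_, Nat.eq_prime_pow_of_unique_prime_dvd hf.ne' fun {l} hl hlf => by
    by_contra h2
    exact hcon l hl h2 hlf⟩
  have h2 : X ∣ n * p ^ j := by
    rw [← h1, h]
    exact Dvd.intro_left _ rfl
  have h3 : X ∣ n := (hX.pow_right _).dvd_of_dvd_mul_right h2
  exact absurd (Nat.le_of_dvd hn h3) (by omega)

/-- `|Out| ≤ q` -/
theorem out_le {K : Type u} [Field K] [Fintype K] {p m : ℕ} [hp : Fact p.Prime] [CharP K p] (hm : 2 ≤ m)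
    (h2 : m = 2 → 3 ≤ Fintype.card K) (hZ : Subgroup.center (PSp m K) = ⊥) :
    Nat.card (Out (PSp m K)) ≤ Nat.card K := by
  obtain ⟨f, hf⟩ := FiniteField.card K p
  have hF : Fintype.card K = p ^ (f : ℕ) := hf.2
  have hf0 : 1 ≤ (f : ℕ) := f.2
  rw [H163.PG.card_out_psp hp.out hf0 hF hm h2 hZ, Nat.card_eq_fintype_card, hF]
  rw [hF] at h2
  clear hF hf
  generalize (f : ℕ) = f at *
  have key : ∀ n : ℕ, n + 1 ≤ 2 ^ n := fun n => Nat.lt_two_pow_self
  rcases hp.out.eq_two_or_odd' with h | h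
  · subst h
    have h3 : Nat.gcd 2 (2 ^ f - 1) = 1 := by
      have h4 : Odd (2 ^ f - 1) := by
        have h5 : Even (2 ^ f) := (Nat.even_pow' (by omega)).2 even_two
        have h6 : 1 ≤ 2 ^ f := Nat.one_le_two_pow
        exact Nat.Even.sub_odd h6 h5 odd_one
      exact (Nat.coprime_two_left.2 h4)
    rw [h3, mul_one]
    by_cases h5 : m = 2
    · have h6 := h2 h5
      have h7 : 2 ≤ f := by
        by_contra hcon
        obtain rfl : f = 1 := by omega
        norm_num at h6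
      rw [if_pos ⟨h5, rfl⟩]
      obtain ⟨k, rfl⟩ := Nat.exists_eq_add_of_le h7
      have h8 := key k
      rw [pow_add]
      omega
    · rw [if_neg (fun h => h5 h.1), one_mul]
      exact le_trans (by omega) (key f)
  · have h3 : 3 ≤ p := by
      have := hp.out.two_le
      rcases h with ⟨k, rfl⟩
      omega
    have h4 : p ≠ 2 := by omega
    rw [if_neg (fun h => h4 h.2), one_mul]
    have h5 : Nat.gcd 2 (p ^ f - 1) ≤ 2 := Nat.gcd_le_left _ (by norm_num)
    calc Nat.gcd 2 (p ^ f - 1) * f ≤ 2 * f := Nat.mul_le_mul_right _ h5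
      _ ≤ 3 ^ f := by
        obtain ⟨k, rfl⟩ := Nat.exists_eq_add_of_le hf0
        have h6 := key k
        have h7 : 2 ^ k ≤ 3 ^ k := Nat.pow_le_pow_left (by norm_num) k
        rw [pow_add]
        omega
      _ ≤ p ^ f := Nat.pow_le_pow_left h3 f

section main

variable {K : Type u} [Field K] [Finite K] {p : ℕ} [hp : Fact p.Prime] [CharP K p]

include hp in
theorem coprime_sub {n : ℕ} (hn : 0 < n) : Nat.Coprime (Nat.card K ^ n - 1) p := by
  have h1 : p ∣ Nat.card K ^ n := (dvd_card_char K (p := p)).trans (dvd_pow_self _ hn.ne')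
  have h2 : 1 ≤ Nat.card K ^ n := Nat.one_le_pow _ _ Finite.card_pos
  rw [Nat.coprime_comm, Nat.Prime.coprime_iff_not_dvd hp.out]
  intro h3
  have h4 := Nat.dvd_sub h1 h3
  rw [Nat.sub_sub_self h2] at h4
  exact hp.out.one_lt.ne' (Nat.dvd_one.1 h4)

include hp in
theorem coprime_add {n : ℕ} (hn : 0 < n) : Nat.Coprime (Nat.card K ^ n + 1) p := by
  have h1 : p ∣ Nat.card K ^ n := (dvd_card_char K (p := p)).trans (dvd_pow_self _ hn.ne')
  rw [Nat.coprime_comm, Nat.Prime.coprime_iff_not_dvd hp.out]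
  intro h3
  have h4 := (Nat.dvd_add_right h1).1 h3
  exact hp.out.one_lt.ne' (Nat.dvd_one.1 h4)

/-- the prime divisors of `f` and `g` -/
theorem exists_prime_fg {m f g : ℕ} (hm : 2 ≤ m) (hf : 0 < f) (hg : 0 < g)
    (h4 : 2 * ((Nat.card K : ℤ) - 1) * f = Nat.card K * ((Nat.card K : ℤ) ^ m - 1) * ((Nat.card K : ℤ) ^ (m - 1) + 1))
    (h5 : 2 * ((Nat.card K : ℤ) - 1) * g = Nat.card K * ((Nat.card K : ℤ) ^ m + 1) * ((Nat.card K : ℤ) ^ (m - 1) - 1)) :
    (∃ l : ℕ, l.Prime ∧ l ≠ p ∧ l ∣ f) ∧ ∃ l : ℕ, l.Prime ∧ l ≠ p ∧ l ∣ g := by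
  have hq : 1 < Nat.card K := Finite.one_lt_card
  have c1 := coprime_sub (K := K) (p := p) (n := m) (by omega)
  have c2 := coprime_add (K := K) (p := p) (n := m - 1) (by omega)
  have c3 := coprime_add (K := K) (p := p) (n := m) (by omega)
  have c4 := coprime_sub (K := K) (p := p) (n := m - 1) (by omega)
  have h1 : 1 ≤ Nat.card K ^ m := Nat.one_le_pow _ _ (by omega)
  have h2 : 1 ≤ Nat.card K ^ (m - 1) := Nat.one_le_pow _ _ (by omega)
  have h3 : Nat.card K ^ m = Nat.card K * Nat.card K ^ (m - 1) := by rw [← pow_succ']; congr 1; omega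
  have h6 : Nat.card K ≤ Nat.card K ^ (m - 1) := Nat.le_self_pow (by omega) _
  constructor
  · refine exists_prime hp.out (Nat.Coprime.mul_left c1 c2) (n := 2 * (Nat.card K - 1)) (q := Nat.card K) ?_ hf (by omega) ?_
    · zify [hq.le, h1]
      linear_combination h4
    · zify [hq.le, h1]
      zify at hq h6 h3
      rw [h3]
      generalize (Nat.card K : ℤ) ^ (m - 1) = P at *
      generalize (Nat.card K : ℤ) = q at *
      nlinarith [mul_le_mul_of_nonneg_left h6 (by omega : (0 : ℤ) ≤ q)]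
  · refine exists_prime hp.out (Nat.Coprime.mul_left c3 c4) (n := 2 * (Nat.card K - 1)) (q := Nat.card K) ?_ hg (by omega) ?_
    · zify [hq.le, h2]
      linear_combination h5
    · zify [hq.le, h2]
      zify at hq h6 h3
      rw [h3]
      generalize (Nat.card K : ℤ) ^ (m - 1) = P at *
      generalize (Nat.card K : ℤ) = q at *
      nlinarith [mul_le_mul_of_nonneg_left h6 (by omega : (0 : ℤ) ≤ q)]

end main

/-- `f` and `g` are unrelated -/
theorem not_rel_fg {q m o f g : ℕ} (hq : 2 ≤ q) (hm : 2 ≤ m) (ho0 : 0 < o) (ho : o ≤ q)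
    (h4 : 2 * ((q : ℤ) - 1) * f = q * ((q : ℤ) ^ m - 1) * ((q : ℤ) ^ (m - 1) + 1))
    (h5 : 2 * ((q : ℤ) - 1) * g = q * ((q : ℤ) ^ m + 1) * ((q : ℤ) ^ (m - 1) - 1)) : ¬ Rel o f g := by
  rintro ⟨d, d', hd, hd', h⟩
  have h3 : (q : ℤ) ^ m = q * (q : ℤ) ^ (m - 1) := by rw [← pow_succ']; congr 1; omega
  have h6 : (q : ℤ) ≤ (q : ℤ) ^ (m - 1) := by exact_mod_cast Nat.le_self_pow (n := m - 1) (by omega) q
  have hqz : (2 : ℤ) ≤ q := by exact_mod_cast hq
  rw [h3] at h4 h5
  have hfg : (f : ℤ) - g = q * (q : ℤ) ^ (m - 1) := by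
    have h7 : 2 * ((q : ℤ) - 1) * ((f : ℤ) - g) = 2 * ((q : ℤ) - 1) * (q * (q : ℤ) ^ (m - 1)) := by
      linear_combination h4 - h5
    exact mul_left_cancel₀ (by
      have : (0 : ℤ) < (q : ℤ) - 1 := by omega
      positivity) h7
  have hd0 : 0 < d := Nat.pos_of_dvd_of_pos hd ho0
  have hz : (f : ℤ) * d = g * d' := by exact_mod_cast h
  have hg2 : (q : ℤ) * (q * (q : ℤ) ^ (m - 1) + 1) ≤ 2 * g := by
    have h7 : ((q : ℤ) - 1) * (q * (q * (q : ℤ) ^ (m - 1) + 1)) ≤ ((q : ℤ) - 1) * (2 * g) := by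
      have h8 : ((q : ℤ) - 1) * (2 * g) = q * (q * (q : ℤ) ^ (m - 1) + 1) * ((q : ℤ) ^ (m - 1) - 1) := by
        linear_combination h5
      rw [h8]
      have h9 : (0 : ℤ) ≤ q * (q * (q : ℤ) ^ (m - 1) + 1) := by positivity
      nlinarith
    exact le_of_mul_le_mul_left h7 (by omega)
  generalize (q : ℤ) ^ (m - 1) = P at *
  have hP : 0 < P := by omega
  have hqP : 0 < (q : ℤ) * P := by positivity
  have hlt : d < d' := by
    by_contra hcon
    push Not at hcon
    have h7 : (d' : ℤ) ≤ d := by exact_mod_cast hcon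
    have h8 : (g : ℤ) * d' ≤ g * d := mul_le_mul_of_nonneg_left h7 (by positivity)
    have h9 : (f : ℤ) * d = g * d + q * P * d := by linear_combination (d : ℤ) * hfg
    have h10 : 0 < (q : ℤ) * P * d := by positivity
    omega
  have h7 := two_mul_le ho0 hd hd' hlt
  have h8 : (2 : ℤ) * d ≤ q := by exact_mod_cast h7.trans ho
  have h9 : (g : ℤ) * 1 ≤ g * (d' - d) := mul_le_mul_of_nonneg_left (by
    have : (d : ℤ) < d' := by exact_mod_cast hlt
    omega) (by positivity)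
  have h10 : (g : ℤ) * (d' - d) = q * P * d := by linear_combination (d : ℤ) * hfg - hz
  have h11 : (q : ℤ) * P * (2 * d) ≤ q * P * q := mul_le_mul_of_nonneg_left h8 hqP.le
  nlinarith

/-- the third degree -/
theorem lt_gamma {K : Type u} [Field K] [Finite K] {m f : ℕ} (hm : 3 ≤ m) (hf : f < dg (CForm.spF K m) 1) :
    Nat.card K * f < dg (CForm.spF K m) 3 := by
  have hq : 1 < Nat.card K := Finite.one_lt_card
  have h1 := dg_sp K (m := m) (k := 1) (by omega) one_pos
  have h3 := dg_sp K (m := m) (k := 3) hm (by norm_num)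
  rw [pow_one, Finset.prod_range_one, Nat.sub_zero] at h1
  rw [Finset.prod_range_succ, Finset.prod_range_succ, Finset.prod_range_one, Nat.sub_zero, ← h1] at h3
  have e1 : 1 ≤ Nat.card K ^ 3 := Nat.one_le_pow _ _ (by omega)
  have e2 : 1 ≤ Nat.card K ^ (2 * (m - 1)) := Nat.one_le_pow _ _ (by omega)
  have e3 : 1 ≤ Nat.card K ^ (2 * (m - 2)) := Nat.one_le_pow _ _ (by omega)
  have l2 : Nat.card K ^ 4 ≤ Nat.card K ^ (2 * (m - 1)) := Nat.pow_le_pow_right (by omega) (by omega)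
  have l3 : Nat.card K ^ 2 ≤ Nat.card K ^ (2 * (m - 2)) := Nat.pow_le_pow_right (by omega) (by omega)
  zify [hq.le, e1, e2, e3] at h3
  zify at hf l2 l3 hq ⊢
  generalize (dg (CForm.spF K m) 1 : ℤ) = D at *
  generalize (dg (CForm.spF K m) 3 : ℤ) = E at *
  generalize (Nat.card K : ℤ) ^ (2 * (m - 1)) = A at *
  generalize (Nat.card K : ℤ) ^ (2 * (m - 2)) = B at *
  generalize (Nat.card K : ℤ) = q at *
  have hD : 0 ≤ D := by omega
  have h5 : (q ^ 3 - 1) * E = (q - 1) * D * (A - 1) * (B - 1) := by linear_combination h3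
  have h6 : (q ^ 2 + q + 1) * E = D * (A - 1) * (B - 1) := by
    apply mul_left_cancel₀ (show q - 1 ≠ 0 by omega)
    linear_combination h5
  have p4 : 0 < q ^ 4 := pow_pos (by omega) 4
  have p2 : 0 < q ^ 2 := pow_pos (by omega) 2
  have h7 : (q ^ 4 - 1) * (q ^ 2 - 1) ≤ (A - 1) * (B - 1) :=
    mul_le_mul (by linarith) (by linarith) (by linarith [Int.add_one_le_of_lt p2]) (by linarith [Int.add_one_le_of_lt p4])
  have h8 : (q ^ 2 + q + 1) * q ≤ (q ^ 4 - 1) * (q ^ 2 - 1) := by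
    obtain ⟨t, rfl⟩ : ∃ t, q = t + 2 := ⟨q - 2, by ring⟩
    have ht : 0 ≤ t := by omega
    rw [← sub_nonneg]
    have e : ((t + 2) ^ 4 - 1) * ((t + 2) ^ 2 - 1) - ((t + 2) ^ 2 + (t + 2) + 1) * (t + 2) =
        t ^ 6 + 12 * t ^ 5 + 59 * t ^ 4 + 151 * t ^ 3 + 208 * t ^ 2 + 139 * t + 31 := by ring
    rw [e]
    positivity
  have h9 : D * ((q ^ 2 + q + 1) * q) ≤ D * ((A - 1) * (B - 1)) := mul_le_mul_of_nonneg_left (h8.trans h7) hD
  have h10 : (q ^ 2 + q + 1) * (q * D) ≤ (q ^ 2 + q + 1) * E := by linarith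
  have h11 : q * D ≤ E := le_of_mul_le_mul_left h10 (by positivity)
  nlinarith

/-- the third degree for `PSp_4` -/
theorem lt_gamma_four {K : Type u} [Field K] [Finite K] {f : ℕ} (h3 : 3 ≤ Nat.card K)
    (h4 : 2 * ((Nat.card K : ℤ) - 1) * f = Nat.card K * ((Nat.card K : ℤ) ^ 2 - 1) * ((Nat.card K : ℤ) ^ (2 - 1) + 1)) :
    Nat.card K * f < dg (CForm.spF K 2) 2 := by
  have hq : 1 < Nat.card K := Finite.one_lt_card
  have h1 := dg_sp K (m := 2) (k := 2) le_rfl two_pos
  rw [Finset.prod_range_succ, Finset.prod_range_one, Nat.sub_zero] at h1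
  have e1 : 1 ≤ Nat.card K ^ 2 := Nat.one_le_pow _ _ (by omega)
  have e2 : 1 ≤ Nat.card K ^ (2 * 2) := Nat.one_le_pow _ _ (by omega)
  have e3 : 1 ≤ Nat.card K ^ (2 * (2 - 1)) := Nat.one_le_pow _ _ (by omega)
  zify [hq.le, e1, e2, e3] at h1
  zify at h3 hq ⊢
  generalize (dg (CForm.spF K 2) 2 : ℤ) = E at *
  generalize (Nat.card K : ℤ) = q at *
  norm_num at h1 h4
  have h5 : E = q ^ 4 - 1 := by
    apply mul_left_cancel₀ (show q ^ 2 - 1 ≠ 0 by nlinarith)
    linear_combination h1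
  have h6 : 2 * (f : ℤ) = q * (q + 1) * (q + 1) := by
    apply mul_left_cancel₀ (show q - 1 ≠ 0 by omega)
    linear_combination h4
  rw [h5]
  nlinarith [mul_nonneg (show (0 : ℤ) ≤ q by omega) (show (0 : ℤ) ≤ q - 3 by omega), sq_nonneg (q ^ 2), mul_nonneg (mul_nonneg (show (0 : ℤ) ≤ q by omega) (show (0 : ℤ) ≤ q - 3 by omega)) (show (0 : ℤ) ≤ q * q by positivity)]

/-- **`PSp_{2m}(q)` at its own characteristic**, apart from `PSp_4(3)` -/
theorem kill_psp_of {S : Type v} [Group S] [Finite S] [IsSimpleGroup S] (hna : ¬ IsMulCommutative S) {p : ℕ}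
    [hp : Fact p.Prime] {K : Type u} [Field K] [Fintype K] [CharP K p] {m : ℕ} (hm : 2 ≤ m)
    (h2 : m = 2 → 4 ≤ Fintype.card K) (e : S ≃* PSp m K) (hL : IsLieTypeChar p S) : Kill p S := by
  have := finite_psp' K m
  have hq : 1 < Nat.card K := Finite.one_lt_card
  have hq2 : m = 2 → 4 ≤ Nat.card K := by rwa [Nat.card_eq_fintype_card]
  have hZ : Subgroup.center (PSp m K) = ⊥ := by
    have h1 : Subgroup.center S = ⊥ := by
      rcases (inferInstance : (Subgroup.center S).Normal).eq_bot_or_eq_top with h | h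
      · exact h
      · exfalso
        apply hna
        exact ⟨⟨fun a b => (Subgroup.mem_center_iff.1 (h ▸ Subgroup.mem_top b) a)⟩⟩
    rw [eq_bot_iff]
    intro z hz
    rw [Subgroup.mem_center_iff] at hz
    have h3 : e.symm z ∈ Subgroup.center S := by
      rw [Subgroup.mem_center_iff]
      intro g
      have h4 := congrArg e.symm (hz (e g))
      rwa [map_mul, map_mul, e.symm_apply_apply] at h4
    rw [h1, Subgroup.mem_bot] at h3
    rw [Subgroup.mem_bot]
    exact (map_eq_one_iff e.symm e.symm.injective).1 h3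
  have ho : Nat.card (Out S) ≤ Nat.card K := by
    rw [H934.OutB.card_out_congr e]
    exact out_le (p := p) hm (fun h => by have := h2 h; omega) hZ
  have ho0 : 0 < Nat.card (Out S) := card_out_pos
  obtain ⟨f, g, hf, hg, h1g, hgf, hfD, h4, h5⟩ := exists_fg K hm
  obtain ⟨c, hc, hcf⟩ : ∃ c, c ∈ charDegrees (PSp m K) ∧ Nat.card K * f < c ∧ ∃ l : ℕ, l.Prime ∧ l ≠ p ∧ l ∣ c := by
    rcases Nat.lt_or_ge 2 m with h | h
    · refine ⟨_, dg_mem K (k := 3) (by norm_num) h (fun _ => le_rfl) (fun _ => le_rfl) (fun _ => by norm_num),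
        lt_gamma h hfD, ?_⟩
      have h6 := lt_gamma h hfD
      have h7 : 1 ≤ Nat.card K * f := Nat.mul_pos (by omega) (by omega)
      refine ⟨_, Nat.minFac_prime (by omega), ?_, Nat.minFac_dvd _⟩
      intro h8
      exact not_dvd_dg K (p := p) (m := m) (k := 3) h (by norm_num) (h8 ▸ Nat.minFac_dvd _)
    · obtain rfl : m = 2 := by omega
      have h6 := lt_gamma_four (by have := hq2 rfl; omega) h4
      have h7 : 1 ≤ Nat.card K * f := Nat.mul_pos (by omega) (by omega)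
      refine ⟨_, dg_mem K (k := 2) (by norm_num) le_rfl (fun h => by have := hq2 rfl; omega)
        (fun h => by have := hq2 rfl; omega) (fun _ => le_rfl), h6, ?_⟩
      refine ⟨_, Nat.minFac_prime (by omega), ?_, Nat.minFac_dvd _⟩
      intro h8
      exact not_dvd_dg K (p := p) (m := 2) (k := 2) le_rfl (by norm_num) (h8 ▸ Nat.minFac_dvd _)
  obtain ⟨hcf, l₃, hl₃, hl₃p, hl₃c⟩ := hcf
  obtain ⟨⟨l₁, hl₁, hl₁p, hl₁f⟩, l₂, hl₂, hl₂p, hl₂g⟩ := exists_prime_fg (p := p) hm (by omega) (by omega) h4 h5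
  obtain ⟨α', rfl⟩ := hf
  obtain ⟨β', rfl⟩ := hg
  obtain ⟨γ', rfl⟩ := hc
  have dα := charDegree_tr e α'
  have dβ := charDegree_tr e β'
  have dγ := charDegree_tr e γ'
  have h6 : Nat.card (Out S) * charDegree (α' : PSp m K → ℂ) ≤ Nat.card K * charDegree (α' : PSp m K → ℂ) :=
    Nat.mul_le_mul_right _ ho
  have h7 : Nat.card (Out S) * charDegree (β' : PSp m K → ℂ) ≤ Nat.card (Out S) * charDegree (α' : PSp m K → ℂ) :=
    Nat.mul_le_mul_left _ hgf.le
  have h8 : 1 * charDegree (α' : PSp m K → ℂ) ≤ Nat.card K * charDegree (α' : PSp m K → ℂ) :=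
    Nat.mul_le_mul_right _ hq.le
  refine kill_three hna (tr e α') (tr e β') (tr e γ')
    (inB0_of_dvd hp.out hl₁ hl₁p hL _ (by rw [dα]; exact hl₁f))
    (inB0_of_dvd hp.out hl₂ hl₂p hL _ (by rw [dβ]; exact hl₂g))
    (inB0_of_dvd hp.out hl₃ hl₃p hL _ (by rw [dγ]; exact hl₃c))
    (nt_of_degree _ (by rw [dα]; omega)) (nt_of_degree _ (by rw [dβ]; omega)) (nt_of_degree _ (by rw [dγ]; omega)) ?_ ?_ ?_
  · rw [dα, dβ]
    exact not_rel_fg hq hm ho0 ho h4 h5
  · rw [dα, dγ]
    exact (not_rel_of_lt ho0 (by omega)).1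
  · rw [dβ, dγ]
    exact (not_rel_of_lt ho0 (by omega)).1

/-- **`PSp_4(3)` at `p = 3`** -/
theorem kill_psp_four_three {S : Type v} [Group S] [Finite S] [IsSimpleGroup S] (hna : ¬ IsMulCommutative S) (hS : SizeOK S)
    {K : Type u} [Field K] [Fintype K] [CharP K 3] (hK : Fintype.card K = 3) (e : S ≃* PSp 2 K)
    (hL : IsLieTypeChar 3 S) : Kill 3 S := by
  have : Fact (Nat.Prime 3) := ⟨Nat.prime_three⟩
  have := finite_psp' K 2
  have hK' : Nat.card K = 3 := by rw [Nat.card_eq_fintype_card, hK]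
  have hZ : Subgroup.center (PSp 2 K) = ⊥ := by
    have h1 : Subgroup.center S = ⊥ := by
      rcases (inferInstance : (Subgroup.center S).Normal).eq_bot_or_eq_top with h | h
      · exact h
      · exfalso
        apply hna
        exact ⟨⟨fun a b => (Subgroup.mem_center_iff.1 (h ▸ Subgroup.mem_top b) a)⟩⟩
    rw [eq_bot_iff]
    intro z hz
    rw [Subgroup.mem_center_iff] at hz
    have h3 : e.symm z ∈ Subgroup.center S := by
      rw [Subgroup.mem_center_iff]
      intro g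
      have h4 := congrArg e.symm (hz (e g))
      rwa [map_mul, map_mul, e.symm_apply_apply] at h4
    rw [h1, Subgroup.mem_bot] at h3
    rw [Subgroup.mem_bot]
    exact (map_eq_one_iff e.symm e.symm.injective).1 h3
  have ho : Nat.card (Out S) = 2 := by
    rw [H934.OutB.card_out_congr e, H163.PG.card_out_psp (p := 3) (f := 1) Nat.prime_three le_rfl (by rw [hK]; norm_num)
      le_rfl (fun _ => hK.ge) hZ]
    norm_num
  obtain ⟨f, g, hf, hg, -, -, -, h4, h5⟩ := exists_fg K (m := 2) le_rfl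
  rw [hK'] at h4 h5
  norm_num at h4 h5
  obtain rfl : f = 24 := by omega
  obtain rfl : g = 15 := by omega
  obtain ⟨α', hα'⟩ := hf
  obtain ⟨β', hβ'⟩ := hg
  have dα := (charDegree_tr e α').trans hα'
  have dβ := (charDegree_tr e β').trans hβ'
  have hp : 3 ∣ Nat.card S := by
    obtain ⟨N, -, hN⟩ := exists_card_psp K (p := 3) 2
    rw [Nat.card_congr e.toEquiv, hN, hK']
    exact Dvd.dvd.mul_right (by norm_num) _
  refine kill_common hna hS hp (tr e α') (tr e β')
    (inB0_of_dvd Nat.prime_three Nat.prime_two (by norm_num) hL _ (by rw [dα]; norm_num))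
    (inB0_of_dvd Nat.prime_three Nat.prime_five (by norm_num) hL _ (by rw [dβ]; norm_num))
    (nt_of_degree _ (by rw [dα]; norm_num)) (nt_of_degree _ (by rw [dβ]; norm_num)) (g := 3) (by rw [ho]; norm_num)
    (by rw [dα]; norm_num) (by rw [dβ]; norm_num) ?_
  rw [ho, dα, dβ]
  rintro ⟨d, d', hd, hd', h⟩
  have h6 := Nat.le_of_dvd two_pos hd
  have h7 := Nat.le_of_dvd two_pos hd'
  have h8 := Nat.pos_of_dvd_of_pos hd two_pos
  omega

/-- **S4932, own characteristic, `PSp_{2m}(q)`** -/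
theorem kill_own_psp {S : Type v} [Group S] [Finite S] [IsSimpleGroup S] (hna : ¬ IsMulCommutative S) (hS : SizeOK S)
    {p : ℕ} (hp : p.Prime) (h : IsPSpChar p S) : Kill p S := by
  have hfp : Fact p.Prime := ⟨hp⟩
  have hL : IsLieTypeChar p S := Or.inr (Or.inl h)
  obtain ⟨F, _, _, hcp, m, hm, h2, ⟨e⟩⟩ := h
  by_cases h3 : m = 2 ∧ Fintype.card F = 3
  · obtain ⟨rfl, h3⟩ := h3
    have hc : CharP F 3 := charP_three F (by rw [Nat.card_eq_fintype_card, h3])
    obtain rfl : p = 3 := CharP.eq F hcp hc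
    exact kill_psp_four_three hna hS h3 e hL
  · exact kill_psp_of hna hm (fun h4 => by have := h2 h4; omega) e hL

theorem row_own_psp {S : Type v} [Group S] [Finite S] [IsSimpleGroup S] (hna : ¬ IsMulCommutative S) (hS : SizeOK S)
    {p : ℕ} (hp : p.Prime) (h : IsPSpChar p S) : Row p S := Or.inl (kill_own_psp hna hS hp h)

end Cfsg.Agent.H362.BD
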